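import Mathlib

/-!
# Consecutive integers dividing `2 ^ a * 5 * q ^ b`
-/

set_option autoImplicit false

namespace CF.K3

theorem odd_quot {q e : ℤ} (hq : Odd q) (he : e = 1 ∨ e = -1) (k : ℕ) :
    ∃ d : ℤ, Odd d ∧ q ^ (2 * k + 1) - e = (q - e) * d := by
  induction k with
  | zero => exact ⟨1, odd_one, by ring⟩
  | succ k ih =>
    obtain ⟨d, h1, h2⟩ := ih
    refine ⟨q ^ 2 * d + e * (q + e), (hq.pow.mul h1).add_even (Even.mul_left (hq.add_odd ?_) _), ?_⟩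
    · rcases he with rfl | rfl <;> decide
    · have : e ^ 2 = 1 := by rcases he with rfl | rfl <;> norm_num
      linear_combination q ^ 2 * h2 + e * this

theorem eq_one_of_odd {q : ℕ} {e : ℤ} (hq : Odd q) (h5 : 5 ≤ q) (he : e = 1 ∨ e = -1) {j a : ℕ} (hj : Odd j)
    (h : (q : ℤ) ^ j - e ∣ 2 ^ a * 5) : j = 1 := by
  obtain ⟨k, rfl⟩ := hj
  obtain ⟨d, h1, h2⟩ := odd_quot (q := q) (by exact_mod_cast hq) he k
  have h3 : d ∣ 5 := (Int.isCoprime_two_right.2 h1).pow_right.dvd_of_dvd_mul_left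
    ((Dvd.intro_left _ h2.symm).trans h)
  have h4 := Int.le_of_dvd (by norm_num) h3
  rcases k with _ | k
  · rfl
  exfalso
  have h6 : (5 : ℤ) ≤ q := by exact_mod_cast h5
  have h7 : (q : ℤ) ^ 3 ≤ q ^ (2 * (k + 1) + 1) := pow_le_pow_right₀ (by omega) (by omega)
  have h8 : (q - e) * d ≤ (q - e) * 5 := mul_le_mul_of_nonneg_left h4 (by omega)
  have h9 : 25 * (q : ℤ) ≤ q ^ 3 := by
    have : (25 : ℤ) ≤ q * q := by nlinarith
    nlinarith
  omega

theorem auri {q i j : ℕ} (hq : q.Prime) (h2 : q ≠ 2) (hj : j ≠ 0) (h : 2 ^ i + 1 = 5 * q ^ j) :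
    i = 6 ∧ q = 13 := by
  have h1 : i % 4 = 2 := by
    have : 2 ^ i % 5 = 2 ^ (i % 4) % 5 := by
      conv_lhs => rw [← Nat.div_add_mod i 4, pow_add, pow_mul, Nat.mul_mod, Nat.pow_mod]
      simp
    have h3 : i % 4 < 4 := Nat.mod_lt _ (by norm_num)
    generalize i % 4 = r at *
    interval_cases r <;> omega
  obtain ⟨k, rfl⟩ : ∃ k, i = 4 * k + 2 := ⟨i / 4, by omega⟩
  obtain ⟨y, hy⟩ : ∃ y, 2 ^ k = y + 1 := ⟨2 ^ k - 1, by have := Nat.one_le_two_pow (n := k); omega⟩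
  have h3 : (2 * y ^ 2 + 2 * y + 1) * (2 * y ^ 2 + 6 * y + 5) = 5 * q ^ j := by
    rw [← h, pow_add, mul_comm 4, pow_mul, hy]; ring
  have h4 : y ≠ 0 := by
    rintro rfl
    have := Nat.one_lt_pow hj hq.one_lt
    omega
  have h5 : 2 * y ^ 2 + 2 * y + 1 ∣ 5 := by
    by_cases c : q ∣ 2 * y ^ 2 + 6 * y + 5
    · refine (Nat.Coprime.pow_right j ((Nat.Prime.coprime_iff_not_dvd hq).2 fun c' => h2 ?_).symm).dvd_of_dvd_mul_right
        (Dvd.intro _ h3)
      have := (Nat.dvd_sub c c')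
      rw [show 2 * y ^ 2 + 6 * y + 5 - (2 * y ^ 2 + 2 * y + 1) = 2 ^ (k + 2) by rw [pow_add, hy]; omega] at this
      exact (Nat.prime_dvd_prime_iff_eq hq Nat.prime_two).1 (hq.dvd_of_dvd_pow this)
    · have := Nat.le_of_dvd (by norm_num) ((Nat.Coprime.pow_right j
        ((Nat.Prime.coprime_iff_not_dvd hq).2 c).symm).dvd_of_dvd_mul_right (Dvd.intro_left _ h3))
      omega
  have h6 := Nat.le_of_dvd (by norm_num) h5
  obtain rfl : y = 1 := by nlinarith [Nat.pos_of_ne_zero h4]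
  have h7 : k = 1 := Nat.pow_right_injective le_rfl (by simpa using hy)
  refine ⟨by omega, (Nat.prime_dvd_prime_iff_eq hq (by norm_num)).1 ?_⟩
  rw [show 13 = q ^ j by omega]
  exact dvd_pow_self _ hj

theorem pairs {n q a b : ℕ} (hq : q.Prime) (h5 : 5 ≤ q) (h1 : n ≠ 1) (h3 : n % 3 = 1)
    (h : n * (n + 1) ∣ 2 ^ a * 5 * q ^ b) : n = 4 ∨ n = q ∨ n + 1 = q ∨ (n = 64 ∧ q = 13) := by
  have ho : Odd q := hq.odd_of_ne_two (by omega)
  have hc : n.Coprime (n + 1) := by simp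
  have key : ∀ O E : ℕ, O.Coprime E → ¬ 2 ∣ O → O * E ∣ 2 ^ a * 5 * q ^ b → O = 1 ∨ O = 5 ∨
      ∃ j ≠ 0, (O = q ^ j ∧ E ∣ 2 ^ a * 5) ∨ (O = 5 * q ^ j ∧ ∃ i, E = 2 ^ i) := fun O E k1 k2 k3 => by
    have k4 : O ∣ 5 * q ^ b := (Nat.Coprime.pow_right a ((Nat.Prime.coprime_iff_not_dvd
      Nat.prime_two).2 k2).symm).dvd_of_dvd_mul_left (mul_assoc (2 ^ a) 5 _ ▸ (dvd_mul_right O E).trans k3)
    obtain ⟨x, y, k5, k6, rfl⟩ := (Nat.dvd_mul).1 k4
    obtain ⟨j, -, rfl⟩ := (Nat.dvd_prime_pow hq).1 k6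
    have k7 : j ≠ 0 → E ∣ 2 ^ a * 5 := fun e =>
      (Nat.Coprime.pow_right b (Nat.Coprime.coprime_dvd_left ((dvd_pow_self q e).mul_left x) k1).symm
        ).dvd_of_dvd_mul_right ((dvd_mul_left E _).trans k3)
    rcases (Nat.dvd_prime (by norm_num)).1 k5 with rfl | rfl <;> rcases eq_or_ne j 0 with rfl | e
    · simp
    · exact .inr (.inr ⟨j, e, .inl ⟨one_mul _, k7 e⟩⟩)
    · simp
    · obtain ⟨i, -, k8⟩ := (Nat.dvd_prime_pow Nat.prime_two).1
        ((Nat.Coprime.coprime_dvd_left (dvd_mul_right 5 _) k1).symm.dvd_of_dvd_mul_right (k7 e))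
      exact .inr (.inr ⟨j, e, .inr ⟨rfl, i, k8⟩⟩)
  by_cases c : 2 ∣ n
  · rcases key (n + 1) n hc.symm (by omega) (mul_comm n _ ▸ h) with e | e | ⟨j, hj, ⟨e, e'⟩ | ⟨e, i, rfl⟩⟩
    · omega
    · omega
    · rcases Nat.even_or_odd j with ⟨k, rfl⟩ | k
      · rw [pow_add] at e
        have := Nat.mul_mod (q ^ k) (q ^ k) 3
        have : q ^ k % 3 < 3 := Nat.mod_lt _ (by norm_num)
        generalize q ^ k % 3 = r at *
        interval_cases r <;> omega
      · have := eq_one_of_odd (a := a) ho h5 (.inl rfl) k (by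
          rw [show (q : ℤ) ^ j - 1 = n by rw [← Nat.cast_pow, ← e]; simp]; exact_mod_cast e')
        rw [this, pow_one] at e
        omega
    · obtain ⟨rfl, rfl⟩ := auri hq (by omega) hj e
      simp
  · rcases key n (n + 1) hc c h with e | e | ⟨j, hj, ⟨e, e'⟩ | ⟨e, i, e'⟩⟩
    · omega
    · omega
    · rcases Nat.even_or_odd j with ⟨k, rfl⟩ | k
      · rw [pow_add] at e
        have k1 := Nat.mul_mod (q ^ k) (q ^ k) 4
        have k2 : q ^ k % 2 = 1 := Nat.odd_iff.1 ho.pow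
        have k3 : q ≤ q ^ k := Nat.le_self_pow (by omega) _
        have k4 : (n + 1) % 4 = 2 := by
          have : q ^ k % 4 = 1 ∨ q ^ k % 4 = 3 := by omega
          rcases this with k | k <;> rw [k] at k1 <;> omega
        obtain ⟨x, y, k5, k6, k7⟩ := (Nat.dvd_mul).1 e'
        obtain ⟨i, -, rfl⟩ := (Nat.dvd_prime_pow Nat.prime_two).1 k5
        have k8 := Nat.le_of_dvd (by norm_num) k6
        have k9 : 25 ≤ n := by nlinarith
        rcases i with _ | _ | i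
        · omega
        · omega
        · rw [pow_add, pow_add] at k7
          have : 4 ∣ n + 1 := ⟨2 ^ i * y, by rw [← k7]; ring⟩
          omega
      · have := eq_one_of_odd (a := a) ho h5 (.inr rfl) k (by
          rw [show (q : ℤ) ^ j - -1 = (n + 1 : ℕ) by rw [← Nat.cast_pow, ← e]; simp]; exact_mod_cast e')
        rw [this, pow_one] at e
        omega
    · have : 2 ^ i % 15 = 2 ^ (i % 4) % 15 := by
        conv_lhs => rw [← Nat.div_add_mod i 4, pow_add, pow_mul, Nat.mul_mod, Nat.pow_mod]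
        simp
      have h3 : i % 4 < 4 := Nat.mod_lt _ (by norm_num)
      generalize i % 4 = r at *
      interval_cases r <;> omega

end CF.K3
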